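import Groth.Agent.Gaga.H980.PowFam
import Groth.Agent.Gaga.H874.RNX
import Groth.Agent.Gaga.H986.NoethStk
import Groth.Agent.S4205
import Mathlib.RingTheory.Filtration

/-!
# Artin–Rees: a morphism injective outside `V(J)` is injective on `J^n N`

[AR] of the proof of GAGA, essential surjectivity: `exists_pow_inj`.
-/

set_option autoImplicit false

open CategoryTheory AlgebraicGeometry TopologicalSpace Opposite

noncomputable section

namespace Groth.Agent.Gaga.H30.PowInj

open Groth.Agent.Gaga.H975.ModSec Groth.Agent.Gaga.H986.Stalk Groth.Agent.Gaga.H986.Pull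
open Groth.Agent.Gaga.H976.Defs Groth.Agent.Gaga.H976.Defs2 Groth.Agent.Gaga.H976.Quot
open Groth.Agent.Gaga.H986.Nak Groth.Agent.Gaga.H976.FPS

/-- Artin–Rees: if a power of `I` kills the submodule `K`, then `I^n M` meets `K` in zero. -/
theorem exists_pow_smul_inf_eq_bot {R M : Type*} [CommRing R] [IsNoetherianRing R]
    [AddCommGroup M] [Module R M] [Module.Finite R M] (I : Ideal R) (K : Submodule R M) (k : ℕ)
    (hk : I ^ k • K = ⊥) : ∃ n : ℕ, (I ^ n • (⊤ : Submodule R M)) ⊓ K = ⊥ := by
  obtain ⟨c, hc⟩ := Ideal.exists_pow_inf_eq_pow_smul I K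
  refine ⟨c + k, ?_⟩
  rw [hc (c + k) (by omega), eq_bot_iff, ← hk]
  exact Submodule.smul_mono (Ideal.pow_le_pow_right (by omega)) inf_le_right

variable {X : Scheme.{0}} [X.Over An.SC]

theorem isNoetherianRing_stO [LocallyOfFiniteType (X ↘ An.SC)] (x : An.Pts X) :
    IsNoetherianRing (StO (An.hol X) x) :=
  Groth.Agent.Gaga.H986.NoethStk.isNoetherianRing_stk x

theorem powFam_anti (J : X.IdealSheafData) (N : An.AnMod X) {m n : ℕ} (h : m ≤ n)
    (x : An.top X) : powFam J n N x ≤ powFam J m N x :=
  Submodule.smul_mono_left (Ideal.pow_le_pow_right h)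

/-- The local statement. -/
theorem exists_pow_inj_near [LocallyOfFiniteType (X ↘ An.SC)] [IsLocallyNoetherian X]
    (hOka : ∀ (M N : An.AnMod X) (f : M ⟶ N), M.IsFinitePresentation → N.IsFinitePresentation →
      (Limits.kernel f).IsFinitePresentation)
    {N P : An.AnMod X} (hN : N.IsFinitePresentation) (hP : P.IsFinitePresentation) (θ : N ⟶ P)
    (J : X.IdealSheafData)
    (hθ : ∀ x : An.Pts X, x.pt ∉ J.support → Function.Injective (stMap (R := An.hol X) θ x))
    (x : An.Pts X) :
    ∃ (V : Opens (An.top X)) (_ : x ∈ V) (n : ℕ), ∀ y ∈ V, ∀ t : St (R := An.hol X) N y,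
      t ∈ powFam J n N y → stMap (R := An.hol X) θ y t = 0 → t = 0 := by
  have hK : (Limits.kernel θ).IsFinitePresentation := hOka N P θ hN hP
  -- the kernel is supported in `V(J)`
  have hK0 : ∀ y : An.Pts X, y.pt ∉ J.support →
      Subsingleton (St (R := An.hol X) (Limits.kernel θ) y) := by
    intro y hy
    refine ⟨fun a b => stMap_kernel_injective (R := An.hol X) θ y ?_⟩
    have h : ∀ c, stMap (R := An.hol X) (Limits.kernel.ι θ) y c = 0 := fun c => by
      have hc : stMap (R := An.hol X) (Limits.kernel.ι θ) y c ∈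
          LinearMap.ker (stMap (R := An.hol X) θ y) := by
        rw [← range_stMap_kernel]
        exact ⟨c, rfl⟩
      exact hθ y hy (hc.trans (map_zero _).symm)
    rw [h a, h b]
  obtain ⟨V, hxV, k, hk⟩ := Groth.Agent.Gaga.H874.RNX.killed_near _ hK J hK0 x
  -- Artin–Rees at `x`
  have hnoeth : IsNoetherianRing (StO (An.hol X) x) := isNoetherianRing_stO x
  have hfin : Module.Finite (StO (An.hol X) x) (St (R := An.hol X) N x) :=
    (((isFinitePresentation_iff (R := An.hol X) N).1 hN x).ft).finite
  obtain ⟨n, hn⟩ := exists_pow_smul_inf_eq_bot (idealAt J x)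
    (LinearMap.ker (stMap (R := An.hol X) θ x)) k (by
      rw [eq_bot_iff, Submodule.smul_le]
      intro b hb t ht
      rw [← range_stMap_kernel] at ht
      obtain ⟨s, rfl⟩ := ht
      rw [← map_smul, hk x hxV b hb s, map_zero]
      exact Submodule.zero_mem _)
  -- the intersection of the kernel with `J^n N`
  let ψ : Limits.kernel θ ⟶ quotMod (R := An.hol X) (N := N) (powFam J n N) :=
    Limits.kernel.ι θ ≫ quotπ (R := An.hol X) (N := N) (powFam J n N)
  have hL : (Limits.kernel ψ).IsFinitePresentation := hOka _ _ ψ hK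
    (Groth.Agent.Gaga.H980.PowFam.quot_isFinitePresentation J n N hN)
  have hopen := Groth.Agent.Gaga.H980.PowFam.openFam_powFam J n N
  have hL0 : ∀ t : St (R := An.hol X) (Limits.kernel ψ) x, t = 0 := by
    intro t
    have h1 : stMap (R := An.hol X) ψ x (stMap (R := An.hol X) (Limits.kernel.ι ψ) x t) = 0 := by
      have : stMap (R := An.hol X) (Limits.kernel.ι ψ) x t ∈
          LinearMap.ker (stMap (R := An.hol X) ψ x) := by
        rw [← range_stMap_kernel]
        exact ⟨t, rfl⟩
      exact this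
    have h2 : stMap (R := An.hol X) (Limits.kernel.ι θ) x
        (stMap (R := An.hol X) (Limits.kernel.ι ψ) x t) ∈
          (idealAt J x ^ n • (⊤ : Submodule (StO (An.hol X) x) (St (R := An.hol X) N x))) ⊓
            LinearMap.ker (stMap (R := An.hol X) θ x) := by
      refine ⟨?_, ?_⟩
      · have h3 := ker_stMap_quotπ (R := An.hol X) hopen x
        change _ ∈ powFam J n N x
        rw [← h3, LinearMap.mem_ker, ← stMap_comp_apply]
        exact h1
      · rw [SetLike.mem_coe, ← range_stMap_kernel]
        exact ⟨_, rfl⟩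
    rw [hn, Submodule.mem_bot] at h2
    have h3 := stMap_kernel_injective (R := An.hol X) θ x (h2.trans (map_zero _).symm)
    exact stMap_kernel_injective (R := An.hol X) ψ x (h3.trans (map_zero _).symm)
  obtain ⟨W, hxW, hW, -⟩ :=
    (((isFinitePresentation_iff (R := An.hol X) _).1 hL x).ft).exists_eq_zero hL0
  refine ⟨W, hxW, n, fun y hy t ht ht0 => ?_⟩
  have h1 : t ∈ LinearMap.ker (stMap (R := An.hol X) θ y) := ht0
  rw [← range_stMap_kernel] at h1
  obtain ⟨s, rfl⟩ := h1
  have h2 : s ∈ LinearMap.ker (stMap (R := An.hol X) ψ y) := by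
    rw [LinearMap.mem_ker, stMap_comp_apply]
    have h3 := ker_stMap_quotπ (R := An.hol X) hopen y
    rw [← h3] at ht
    exact ht
  rw [← range_stMap_kernel] at h2
  obtain ⟨u, rfl⟩ := h2
  rw [hW y hy u, map_zero, map_zero]

/-- **[AR]** -/
theorem exists_pow_inj [IsReduced X] [IsProper (X ↘ An.SC)]
    (hOka : ∀ (M N : An.AnMod X) (f : M ⟶ N), M.IsFinitePresentation → N.IsFinitePresentation →
      (Limits.kernel f).IsFinitePresentation)
    {N P : An.AnMod X} (hN : N.IsFinitePresentation) (hP : P.IsFinitePresentation) (θ : N ⟶ P)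
    (J : X.IdealSheafData)
    (hθ : ∀ x : An.Pts X, x.pt ∉ J.support → Function.Injective (stMap (R := An.hol X) θ x)) :
    ∃ n : ℕ, ∀ (x : An.Pts X) (t : St (R := An.hol X) N x), t ∈ powFam J n N x →
      stMap (R := An.hol X) θ x t = 0 → t = 0 := by
  have hnoeth : IsLocallyNoetherian X := LocallyOfFiniteType.isLocallyNoetherian (X ↘ An.SC)
  have hcomp : CompactSpace (An.Pts X) := ((Groth.Agent.S4205.result X).1 inferInstance).1
  have hcomp' : CompactSpace (An.top X) := hcomp
  choose V hxV n hn using fun x : An.Pts X => exists_pow_inj_near hOka hN hP θ J hθ x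
  obtain ⟨s, hs⟩ := CompactSpace.elim_nhds_subcover (X := An.top X)
    (fun x : An.top X => (V (show An.Pts X from x) : Set (An.top X)))
    (fun x => (V (show An.Pts X from x)).isOpen.mem_nhds (hxV _))
  refine ⟨s.sup fun x => n (show An.Pts X from x), fun x t ht h0 => ?_⟩
  have hx : (show An.top X from x) ∈ (⊤ : Set (An.top X)) := trivial
  rw [← hs, Set.mem_iUnion₂] at hx
  obtain ⟨y, hy, hxy⟩ := hx
  exact hn y x hxy t (powFam_anti J N (Finset.le_sup (f := fun x => n (show An.Pts X from x)) hy) x ht) h0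

end Groth.Agent.Gaga.H30.PowInj
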